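import Cfsg.Agent.Blocks.OneLess.Subsection
import Cfsg.Agent.Blocks.PrincipalPair
import Cfsg.Agent.Blocks.HeightZero.PrincipalSection
import Cfsg.Agent.Blocks.Defect.Principal
import Cfsg.Agent.Blocks.DefectDegree
import Cfsg.Agent.Chars.CyclicTI.TISylowCongr
import Cfsg.Agent.Chars.FrobSchur.Count
import Cfsg.Agent.KleinFourBlock.Formula

/-!
# The column of a principal block with one character more than modular characters

All nontrivial elements of a Sylow subgroup are conjugate and the centralizer of a central one is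
`p`-nilpotent, so the column there consists of nonzero rational integers with square sum the order
of the Sylow subgroup, orthogonal to the degrees and, for odd `p`, with indicator sum one.
-/

set_option autoImplicit false
set_option linter.style.haveILetI false
open Cfsg CfsgLib CfsgLib.Blocks
open scoped ComplexConjugate

namespace CfsgLib.Blocks.OneLess

universe u

variable {G : Type u} [Group G] [Fintype G] {p : ℕ} [hp : Fact p.Prime] {M : Ideal AlgInt}

/-- A nontrivial member of the principal block does not vanish on all singular elements. -/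
theorem exists_singular_ne_zero (hM : IsPModular p M) {χ : IrrCharacter G}
    (hχ : χ ∈ principalBlock M G) (hne : χ ≠ Chars.oneChar G) :
    ∃ g : G, p ∣ orderOf g ∧ (χ : G → ℂ) g ≠ 0 := by
  classical
  have := isMaximal_of_isPModular hM
  by_contra hcon
  push Not at hcon
  obtain ⟨P⟩ := (inferInstance : Nonempty (Sylow p G))
  haveI := Fintype.ofFinite (P : Subgroup G)
  obtain ⟨m, hm⟩ := Chars.exists_nat_classInner
    (Chars.isCharacter_restrict (Chars.isCharacter_coe χ) (P : Subgroup G)) (Chars.oneChar (P : Subgroup G))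
  have hq : ((charDegree (χ : G → ℂ) : ℕ) : ℂ) =
      ((Nat.card (P : Subgroup G) * m : ℕ) : ℂ) := by
    rw [Nat.cast_mul, ← hm, classInner]
    have hs : ∑ g : (P : Subgroup G), (χ : G → ℂ) g *
        conj (((Chars.oneChar (P : Subgroup G)) : ↥(P : Subgroup G) → ℂ) g) =
        (χ : G → ℂ) 1 := by
      rw [Finset.sum_eq_single (1 : (P : Subgroup G))]
      · simp
      · intro g _ hg
        rw [hcon g ?_, zero_mul]
        obtain ⟨k, hk⟩ := IsPGroup.iff_orderOf.1 P.isPGroup' g
        rw [Subgroup.orderOf_coe, hk]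
        exact dvd_pow_self p fun h => hg (orderOf_eq_one_iff.1 (by rw [hk, h, pow_zero]))
      · simp
    rw [hs, mul_inv_cancel_left₀ Chars.natCard_ne_zero, Chars.coe_charDegree]
  have hdvd : p ^ (Nat.card G).factorization p ∣ charDegree (χ : G → ℂ) := by
    rw [Nat.cast_inj.1 hq, P.card_eq_multiplicity]
    exact Dvd.intro _ rfl
  set c : G → ℂ := fun g => (charDegree (χ : G → ℂ) : ℂ) / (Nat.card G : ℂ) * (χ : G → ℂ) g⁻¹
  have hd0 := (Chars.charDegree_pos χ).ne'
  have hc : ∀ g, MemLocalRing M (c g) := fun g => (localRing M).mul_mem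
    (memLocalRing_natCast_div hM hd0 Nat.card_pos.ne'
      ((hp.out.pow_dvd_iff_le_factorization hd0).1 hdvd))
    (HeightZero.memLocalRing_apply (Chars.isCharacter_coe χ) _)
  have hcls : IsClassFunction G c := fun a b => by
    simp only [c, mul_inv_rev, inv_inv, ← mul_assoc, Chars.isClassFunction_coe χ a⁻¹ b]
  have hz : ofFun c ∈ centerO M G := ⟨isCentralElt_ofFun hcls, fun x => hc x⟩
  have hsame : SameBlock M (Chars.oneChar G : G → ℂ) (χ : G → ℂ) := by
    rw [Chars.oneChar_coe]; exact hχ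
  have h := congr_omega_of_sameBlock hz hsame
  rw [omega_ofFun, omega_ofFun] at h
  have h0 : ∑ g : G, c g * (Chars.oneChar G : G → ℂ) g / (Chars.oneChar G : G → ℂ) 1 = 0 := by
    have h2 := Chars.classInner_of_ne (G := G) (Ne.symm hne)
    simp only [classInner, Chars.oneChar_apply, one_mul, mul_eq_zero, inv_eq_zero] at h2
    simp only [c, Chars.oneChar_apply, mul_one, div_one,
      Chars.map_inv_eq_conj (Chars.isCharacter_coe χ), ← Finset.mul_sum]
    rw [h2.resolve_left Chars.natCard_ne_zero, mul_zero]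
  have h1 : ∑ g : G, c g * (χ : G → ℂ) g / (χ : G → ℂ) 1 = 1 := by
    refine Eq.trans ?_ (Chars.classInner_self χ)
    rw [classInner, Finset.mul_sum]
    refine Finset.sum_congr rfl fun g _ => ?_
    simp only [c, Chars.coe_charDegree, Chars.map_inv_eq_conj (Chars.isCharacter_coe χ)]
    field_simp [Chars.map_one_ne_zero χ, Chars.natCard_ne_zero (G := G)]
  rw [h0, h1] at h
  exact not_memLocalIdeal_one (M := M) (memLocalIdeal_iff_congr_zero.mpr (Congr.symm h))

/-- The squares over the coset of a central `p`-element of odd order. -/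
theorem sum_sqrtCount_coset (hodd : p ≠ 2) {u : G} (hu : ∃ e : ℕ, orderOf u = p ^ e)
    {C : Subgroup G} (hC : C = Subgroup.centralizer ({u} : Set G))
    {N : Subgroup C} [N.Normal] [Fintype N]
    (hN : (Nat.card N).Coprime p) {k : ℕ} (hk : N.index = p ^ k) :
    ∑ n : N, FrobSchur.sqrtCount (u * ((n : C) : G)) = Nat.card N := by
  classical
  have hmemC : ∀ y : G, y ∈ C ↔ y * u = u * y := fun y => by
    rw [hC, Subgroup.mem_centralizer_singleton_iff]
  set uc : C := ⟨u, (hmemC u).2 rfl⟩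
  obtain ⟨r, hr⟩ : ∃ r, p ^ k + 1 = 2 * r := by
    obtain ⟨m, hm⟩ := (hp.out.odd_of_ne_two hodd).pow (n := k)
    exact ⟨m + 1, by omega⟩
  have hpow : ∀ v : C ⧸ N, v ^ (p ^ k) = 1 := fun v => by
    rw [← hk, Subgroup.index_eq_card, pow_card_eq_one']
  have hmem : ∀ (n : N) (x : G), x * x = u * ((n : C) : G) → x ∈ C := by
    intro n x hx
    have hc : Commute u ((n : C) : G) :=
      ((hmemC _).1 (n : C).2).symm
    obtain ⟨e, he⟩ := hu
    have hco : (orderOf ((n : C) : G)).Coprime (orderOf u) := by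
      rw [he, Subgroup.orderOf_coe]
      exact ((Nat.Coprime.coprime_dvd_left (Subgroup.orderOf_dvd_natCard N n.2) hN).pow_right e)
    obtain ⟨m, hm⟩ := exists_pow_eq_self_of_coprime hco
    have h2 : Commute x (u * ((n : C) : G)) := hx ▸ (Commute.refl x).mul_right (Commute.refl x)
    have h3 := (h2.pow_right (orderOf ((n : C) : G))).pow_right m
    rw [hc.mul_pow, pow_orderOf_eq_one, mul_one, hm] at h3
    exact (hmemC x).2 h3.eq
  have hroot : ∀ (n : N) (x : C), (x : G) * x = u * ((n : C) : G) → (uc ^ r)⁻¹ * x ∈ N := by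
    intro n x hx
    have hxx : x * x = uc * (n : C) := Subtype.ext hx
    rw [← QuotientGroup.eq_one_iff, QuotientGroup.mk_mul, QuotientGroup.mk_inv,
      inv_mul_eq_one]
    have h2 : ((x : C ⧸ N)) * x = (uc : C ⧸ N) := by
      rw [← QuotientGroup.mk_mul, hxx, QuotientGroup.mk_mul, (QuotientGroup.eq_one_iff _).2 n.2,
        mul_one]
    rw [QuotientGroup.mk_pow, ← h2, ← pow_two, ← pow_mul, ← hr, pow_succ, hpow, one_mul]
  have hsq : ∀ m : N, uc⁻¹ * (uc ^ r * (m : C) * (uc ^ r * (m : C))) ∈ N := by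
    intro m
    rw [← QuotientGroup.eq_one_iff]
    simp only [QuotientGroup.mk_mul, QuotientGroup.mk_inv, QuotientGroup.mk_pow,
      (QuotientGroup.eq_one_iff _).2 m.2, mul_one]
    rw [← pow_add, ← two_mul, ← hr, pow_succ, hpow, one_mul, inv_mul_cancel]
  let e : (Σ n : N, {x : G // x * x = u * ((n : C) : G)}) ≃ N :=
    { toFun := fun a => ⟨(uc ^ r)⁻¹ * ⟨a.2.1, hmem a.1 _ a.2.2⟩,
        hroot a.1 ⟨a.2.1, hmem a.1 _ a.2.2⟩ a.2.2⟩
      invFun := fun m => ⟨⟨_, hsq m⟩, ⟨((uc ^ r * (m : C) : C) : G), by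
        show _ = u * ((uc⁻¹ * (uc ^ r * (m : C) * (uc ^ r * (m : C))) : C) : G)
        simp [uc, ← mul_assoc]⟩⟩
      left_inv := by
        rintro ⟨n, x, hx⟩
        have key : ∀ (a b : Σ n : N, {x : G // x * x = u * ((n : C) : G)}),
            a.2.1 = b.2.1 → a = b := by
          rintro ⟨a, y, hy⟩ ⟨b, z, hz⟩ (h : y = z)
          subst h
          obtain rfl : a = b := Subtype.ext (Subtype.ext (mul_left_cancel (hy.symm.trans hz)))
          rfl
        exact key _ _ (by simp [← mul_assoc])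
      right_inv := fun m => by
        apply Subtype.ext
        apply Subtype.ext
        simp [← mul_assoc] }
  rw [← Nat.card_congr e, Nat.card_sigma]
  rfl

/-- The column of a nontrivial central element of a Sylow subgroup. -/
theorem exists_column (hM : IsPModular p M)
    (hk : Nat.card (principalBlock M G) = blockRank p (principalBlock M G) + 1)
    (P : Sylow p G) (hP : (P : Subgroup G) ≠ ⊥) :
    ∃ a : IrrCharacter G → ℤ, a (Chars.oneChar G) = 1 ∧
      (∀ χ ∈ principalBlock M G, a χ ≠ 0) ∧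
      ∑ χ ∈ (principalBlock M G).toFinite.toFinset, a χ ^ 2 = Nat.card (P : Subgroup G) ∧
      ∑ χ ∈ (principalBlock M G).toFinite.toFinset, a χ * charDegree (χ : G → ℂ) = 0 ∧
      (p ≠ 2 → ∑ χ ∈ (principalBlock M G).toFinite.toFinset,
        FrobSchur.indicator (χ : G → ℂ) * (a χ : ℂ) = 1) ∧
      (∀ χ ∈ principalBlock M G, ∀ ψ ∈ principalBlock M G,
        (∀ g : G, (ψ : G → ℂ) g = conj ((χ : G → ℂ) g)) → a ψ = a χ) := by
  classical
  have := isMaximal_of_isPModular hM
  haveI : CharP (kres M) p := charP_kres hM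
  set B := principalBlock M G with hBdef
  have hB : IsPBlock M B := isPBlock_principalBlock
  have hD : IsDefectGroup p M B (P : Subgroup G) := (isDefectGroup_principalBlock_iff _).2 ⟨P, rfl⟩
  haveI := (Subgroup.nontrivial_iff_ne_bot _).2 hP
  haveI := P.isPGroup'.center_nontrivial
  obtain ⟨⟨z, hz⟩, hz1⟩ := exists_ne (1 : Subgroup.center (P : Subgroup G))
  set u : G := (z : G) with hudef
  have hu1 : u ≠ 1 := fun h => hz1 (Subtype.ext (Subtype.ext h))
  obtain ⟨hclass, hrank⟩ := one_class hM hB hD hk z.2 hu1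
  obtain ⟨e, he⟩ := IsPGroup.iff_orderOf.1 P.isPGroup' z
  have hu : ∃ e : ℕ, orderOf u = p ^ e := ⟨e, by rw [hudef, Subgroup.orderOf_coe, he]⟩
  set C := Subgroup.centralizer ({u} : Set G) with hCdef
  haveI := Fintype.ofFinite C
  have hPC : (P : Subgroup G) ≤ C := fun x hx => Subgroup.mem_centralizer_singleton_iff.2
    (congrArg Subtype.val (Subgroup.mem_center_iff.1 hz ⟨x, hx⟩))
  set b := principalBlock M C with hbdef
  have hb : IsPBlock M b := isPBlock_principalBlock
  have hb1 : blockRank p b = 1 := hrank b ((HeightZero.isInducedBlock_principal_iff hM hu hb).2 rfl)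
  obtain ⟨N, hN, hNc, k, hNk⟩ := Transfer.hasNormalPComplement_iff_exists.1
    (PrincipalPair.hasNormalPComplement_of_rank_one hM hb1)
  haveI := hN
  haveI := Fintype.ofFinite N
  have hreg : ∀ t : C, t ∈ N ↔ ¬ p ∣ orderOf t := fun t =>
    (Transfer.mem_iff_coprime_of_pPower_index hNc hNk t).trans
      ⟨Transfer.not_dvd_of_coprime, Transfer.coprime_of_not_dvd⟩
  have hreg1 : ¬ p ∣ orderOf (1 : C) := by simp [hp.out.ne_one]
  have hval : ∀ ψ ∈ b, ∀ t : C, t ∈ N → (ψ : C → ℂ) t = (ψ : C → ℂ) 1 := fun ψ hψ t ht =>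
    PrincipalPair.eq_oneChar_smul_of_rank_one hM hb1 hψ ((hreg t).1 ht)
  set S : ℂ := ∑ ψ ∈ b.toFinite.toFinset, (ψ : C → ℂ) 1 * (ψ : C → ℂ) 1 with hSdef
  have hS : (Nat.card C : ℂ) = (Nat.card N : ℂ) * S := by
    have h1 : ∑ ψ ∈ b.toFinite.toFinset, (ψ : C → ℂ) 1 * ∑ t : C, (ψ : C → ℂ) t =
        (Nat.card C : ℂ) := by
      rw [Finset.sum_eq_single_of_mem (Chars.oneChar C)
        ((Set.Finite.mem_toFinset _).2 (PrincipalLinear.one_mem hM))]
      · simp [Nat.card_eq_fintype_card]
      · intro ψ _ hne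
        have h := Chars.classInner_of_ne (G := C) hne
        simp only [classInner, Chars.oneChar_apply, map_one, mul_one, mul_eq_zero,
          inv_eq_zero] at h
        rw [h.resolve_left Chars.natCard_ne_zero, mul_zero]
    rw [← h1, Nat.card_eq_fintype_card]
    simp only [Finset.mul_sum]
    rw [Finset.sum_comm, ← Finset.sum_subset (Finset.subset_univ (Finset.univ.filter (· ∈ N)))
      fun t _ ht => by
        have h := finsum_block_one_mul_singular hM hb (y := t)
          (not_not.1 fun h => ht (Finset.mem_filter.2 ⟨Finset.mem_univ _, (hreg t).2 h⟩))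
        rwa [finsum_block_eq_sum] at h,
      Finset.sum_congr rfl fun t ht => Finset.sum_congr rfl fun ψ hψ => by
        rw [hval ψ ((Set.Finite.mem_toFinset _).1 hψ) t (Finset.mem_filter.1 ht).2],
      Finset.sum_const, ← Fintype.card_subtype, nsmul_eq_mul]
  have hCN : Nat.card C = Nat.card N * p ^ k := by rw [← hNk, Subgroup.card_mul_index]
  have hN0 : (Nat.card N : ℂ) ≠ 0 := Nat.cast_ne_zero.2 Nat.card_pos.ne'
  have hPk : Nat.card (P : Subgroup G) = p ^ k := by
    obtain ⟨j, hj⟩ := P.isPGroup'.exists_card_eq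
    refine Nat.dvd_antisymm ?_ (P.pow_dvd_card_of_pow_dvd_card
      ((Dvd.intro_left _ hCN.symm).trans (Subgroup.card_subgroup_dvd_card C)))
    have h := Subgroup.card_dvd_of_le hPC
    rw [hCN] at h
    refine Nat.Coprime.dvd_of_dvd_mul_left ?_ h
    rw [hj]
    exact (hNc.pow_right j).symm
  have hSq : S = (Nat.card (P : Subgroup G) : ℂ) := by
    rw [hCN, Nat.cast_mul] at hS
    rw [hPk]
    exact (mul_left_cancel₀ hN0 hS).symm
  -- the coefficients of the idempotent of `b` on regular elements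
  have hcoef : ∀ t : C, t ∈ N → blockCoeff b t = (Nat.card N : ℂ)⁻¹ := by
    intro t ht
    rw [blockCoeff, finsum_block_eq_sum, Finset.sum_congr rfl fun ψ hψ => by
      rw [hval ψ ((Set.Finite.mem_toFinset _).1 hψ) t ht,
        Chars.conj_map_one (Chars.isCharacter_coe ψ)]]
    rw [← hSdef, hS]
    have hS0 : S ≠ 0 := by rw [hSq]; exact Nat.cast_ne_zero.2 Nat.card_pos.ne'
    field_simp
  have havg : ∀ (χ : IrrCharacter G),
      blockPart b (fun c : C => (χ : G → ℂ) (u * (c : G))) 1 =
        (Nat.card N : ℂ)⁻¹ * ∑ n : N, (χ : G → ℂ) (u * ((n : C) : G)) := by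
    intro χ
    rw [blockPart_eq_sum_regSet hM hb (isClassFunction_translate rfl χ) hreg1, Finset.mul_sum,
      ← Finset.sum_subtype (regSet p C) (p := fun t => t ∈ N) (fun t => by
        rw [mem_regSet, hreg]; rfl) (fun t : C => (Nat.card N : ℂ)⁻¹ * (χ : G → ℂ) (u * (t : G)))]
    refine Finset.sum_congr rfl fun t ht => ?_
    rw [inv_one, mul_one, hcoef t ((hreg t).2 (mem_regSet.1 ht))]
  have hconst : ∀ χ ∈ B, ∀ t : C, t ∈ N → (χ : G → ℂ) (u * (t : G)) = (χ : G → ℂ) u := by
    intro χ hχ t ht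
    have h1 := HeightZero.apply_section_eq_blockPart hM hu hχ (s := t) ((hreg t).1 ht)
    have h2 := HeightZero.apply_section_eq_blockPart hM hu hχ (s := (1 : C)) hreg1
    rw [Subgroup.coe_one, mul_one] at h2
    rw [h1, h2, blockPart_apply_eq]
    simp only [Finset.sum_apply, Pi.smul_apply, smul_eq_mul]
    exact Finset.sum_congr rfl fun ψ hψ => by rw [hval ψ ((Set.Finite.mem_toFinset _).1 hψ) t ht]
  have hsing : ∀ χ ∈ B, ∀ g : G, p ∣ orderOf g → (χ : G → ℂ) g = (χ : G → ℂ) u := by
    intro χ hχ g hg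
    obtain ⟨x, y, hx, hy, hxy, ⟨j, hj⟩, hyc⟩ := Transfer.exists_pPart_decomposition (p := p) g
    have hx1 : x ≠ 1 := by
      rintro rfl
      rw [hxy, one_mul] at hg
      exact Transfer.not_dvd_of_coprime hyc hg
    obtain ⟨i, -, hi⟩ := (Nat.dvd_prime_pow hp.out).1 hj
    obtain ⟨Q, hQ⟩ := (IsPGroup.of_card (G := Subgroup.zpowers x) (p := p) (n := i)
      (by rw [Nat.card_zpowers, hi])).exists_le_sylow
    obtain ⟨c, hc⟩ := MulAction.exists_smul_eq G Q P
    have hxP : c * x * c⁻¹ ∈ (P : Subgroup G) := by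
      rw [← hc]
      exact ⟨x, hQ (Subgroup.mem_zpowers x), rfl⟩
    obtain ⟨d, hd⟩ := isConj_iff.1 (hclass _ hxP fun h => hx1 (by
      simpa [mul_assoc] using congrArg (fun w => c⁻¹ * w * c) h))
    set c' := d⁻¹ * c with hc'
    have hxu : c' * x * c'⁻¹ = u := by
      rw [hc', show d⁻¹ * c * x * (d⁻¹ * c)⁻¹ = d⁻¹ * (c * x * c⁻¹) * d by group, ← hd, hudef]
      group
    have hcomm : Commute x y := by
      obtain ⟨m, rfl⟩ := hx
      obtain ⟨m', rfl⟩ := hy
      exact Commute.zpow_zpow (Commute.refl g) m m'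
    have hyC : c' * y * c'⁻¹ ∈ C := by
      refine Subgroup.mem_centralizer_singleton_iff.2 ?_
      rw [← hxu]
      exact ((hcomm.map (MulAut.conj c').toMonoidHom).eq).symm
    have hyN : (⟨c' * y * c'⁻¹, hyC⟩ : C) ∈ N := (hreg _).2 (by
      rw [Subgroup.orderOf_mk]
      show ¬ p ∣ orderOf (MulAut.conj c' y)
      rw [MulEquiv.orderOf_eq]
      exact Transfer.not_dvd_of_coprime hyc)
    rw [← Chars.isClassFunction_coe χ g c', ← hconst χ hχ _ hyN]
    refine congrArg (χ : G → ℂ) ?_
    rw [← hxu, hxy]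
    group
  have hint : ∀ χ ∈ B, ∃ m : ℤ, (χ : G → ℂ) u = m := by
    intro χ hχ
    refine Chars.TISylow.exists_int_of_const (Chars.isCharacter_coe χ) u fun j hj => hsing χ hχ _ ?_
    rw [Nat.Coprime.orderOf_pow hj.symm]
    obtain ⟨e, he⟩ := hu
    rw [he]
    exact dvd_pow_self p fun h => hu1 (orderOf_eq_one_iff.1 (by rw [he, h, pow_zero]))
  let a : IrrCharacter G → ℤ := fun χ => if h : χ ∈ B then (hint χ h).choose else 0
  have ha : ∀ χ ∈ B, (χ : G → ℂ) u = a χ := fun χ hχ => by
    simp only [a, dif_pos hχ]; exact (hint χ hχ).choose_spec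
  have hone := PrincipalLinear.one_mem (G := G) hM
  have hmem : ∀ {χ}, χ ∈ B.toFinite.toFinset → χ ∈ B := fun h => (Set.Finite.mem_toFinset _).1 h
  have ha1 : a (Chars.oneChar G) = 1 := by
    have h := ha _ hone
    rw [Chars.oneChar_apply] at h
    exact_mod_cast h.symm
  refine ⟨a, ha1, fun χ hχ h0 => ?_, ?_, ?_, fun hodd => ?_, fun χ hχ ψ hψ hconj => ?_⟩
  · obtain ⟨g, hg, hne⟩ := exists_singular_ne_zero hM hχ fun h => by
      rw [h, ha1] at h0; exact one_ne_zero h0
    exact hne (by rw [hsing χ hχ g hg, ha χ hχ, h0, Int.cast_zero])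
  · have h := HeightZero.sum_principal_section hM hu (s := (1 : C)) hreg1
    rw [Subgroup.coe_one, mul_one] at h
    have h2 : ((∑ χ ∈ B.toFinite.toFinset, a χ ^ 2 : ℤ) : ℂ) =
        ((Nat.card (P : Subgroup G) : ℤ) : ℂ) := by
      rw [Int.cast_natCast, ← hSq, hSdef, Int.cast_sum]
      refine Eq.trans (Finset.sum_congr rfl fun χ hχ => ?_) (h.trans (Finset.sum_congr rfl
        fun ψ _ => by rw [Chars.conj_map_one (Chars.isCharacter_coe ψ)]))
      rw [ha χ (hmem hχ), map_intCast, Int.cast_pow, sq]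
    exact_mod_cast h2
  · have h := finsum_block_one_mul_singular hM hB (y := u) (by
      obtain ⟨e, he⟩ := hu
      rw [he]
      exact dvd_pow_self p fun h => hu1 (orderOf_eq_one_iff.1 (by rw [he, h, pow_zero])))
    rw [finsum_block_eq_sum] at h
    have h2 : ((∑ χ ∈ B.toFinite.toFinset, a χ * charDegree (χ : G → ℂ) : ℤ) : ℂ) = 0 := by
      rw [← h, Int.cast_sum]
      refine Finset.sum_congr rfl fun χ hχ => ?_
      rw [Int.cast_mul, Int.cast_natCast, Chars.coe_charDegree, ha χ (hmem hχ), mul_comm]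
    exact_mod_cast h2
  · have hout : ∀ χ : IrrCharacter G, χ ∉ B →
        ∑ n : N, (χ : G → ℂ) (u * ((n : C) : G)) = 0 := by
      intro χ hχ
      have hind : IsInducedBlock M C b B := (HeightZero.isInducedBlock_principal_iff hM hu hb).2 rfl
      have h := blockPart_section_eq_zero hM rfl hu hb ⟨χ, rfl⟩
        (fun h => hχ (by rw [isInducedBlock_unique hM hind h]; exact self_mem_blockOf χ))
        (self_mem_blockOf χ) (s := (1 : C)) hreg1
      rw [havg, mul_eq_zero] at h
      exact h.resolve_left (inv_ne_zero hN0)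
    have h1 : (∑ n : N, (FrobSchur.sqrtCount (u * ((n : C) : G)) : ℂ)) = (Nat.card N : ℂ) := by
      rw [← Nat.cast_sum, sum_sqrtCount_coset hodd hu hCdef hNc hNk]
    simp only [← FrobSchur.sum_indicator_mul] at h1
    rw [Finset.sum_comm] at h1
    simp only [← Finset.mul_sum] at h1
    rw [← Finset.sum_subset (Finset.subset_univ B.toFinite.toFinset) fun χ _ hχ => by
      rw [hout χ fun h => hχ ((Set.Finite.mem_toFinset _).2 h), mul_zero]] at h1
    rw [Finset.sum_congr rfl fun χ hχ => by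
      rw [Finset.sum_congr rfl fun (n : N) _ => hconst χ (hmem hχ) (n : C) n.2, Finset.sum_const,
        Finset.card_univ, ← Nat.card_eq_fintype_card, nsmul_eq_mul, ha χ (hmem hχ),
        mul_left_comm], ← Finset.mul_sum] at h1
    exact mul_left_cancel₀ hN0 (by rw [h1, mul_one])
  · have h := hconj u
    rw [ha χ hχ, ha ψ hψ, map_intCast] at h
    exact_mod_cast h

end CfsgLib.Blocks.OneLess
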