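import Cfsg.Agent.Constrained.Basic
import Cfsg.Agent.Constrained.PLength

/-!
# One class of nontrivial elements in a Sylow subgroup

* `sylow_commute_of_solvable`: in a `p`-solvable group the Sylow subgroup is then abelian;
* `sylow_commute_of_nilpotent_centralizers`: so it is if moreover, for odd `p`, the centralizers
  of its nontrivial elements have normal `p`-complements: an involution of the normalizer inverts
  it.
-/

set_option autoImplicit false
set_option linter.style.haveILetI false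
open Cfsg CfsgLib

namespace CfsgLib.Blocks.OneLess

variable {G : Type*} [Group G] [Finite G] {p : ℕ} [Fact p.Prime] (P : Sylow p G)

/-- The `p`-solvable case. -/
theorem sylow_commute_of_solvable (hsolv : IsPSolvable p G)
    (hone : ∀ x ∈ (P : Subgroup G), x ≠ 1 → ∀ y ∈ (P : Subgroup G), y ≠ 1 → IsConj x y) :
    ∀ a ∈ (P : Subgroup G), ∀ b ∈ (P : Subgroup G), a * b = b * a := by
  set K := pPrimePCore p G with hK
  set O := pPrimeCore p G with hO
  haveI : O.Normal := inferInstance
  intro a ha b hb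
  by_cases hbot : (P : Subgroup G) = ⊥
  · rw [hbot, Subgroup.mem_bot] at ha; subst ha; simp
  obtain ⟨S⟩ : Nonempty (Sylow p K) := inferInstance
  set S' := (S : Subgroup K).map K.subtype with hS'
  have hSp : IsPGroup p S' := S.2.map _
  obtain ⟨R, hR⟩ := hSp.exists_le_sylow
  obtain ⟨g, hg⟩ := MulAction.exists_smul_eq G R P
  -- a nontrivial element of `P` in `K`
  obtain ⟨x, hxP, hxK, hx1⟩ : ∃ x ∈ (P : Subgroup G), x ∈ K ∧ x ≠ 1 := by
    by_cases hS1 : S' = ⊥
    · obtain ⟨⟨x, hx⟩, hx1⟩ := Subgroup.ne_bot_iff_exists_ne_one.mp hbot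
      refine ⟨x, hx, Constrained.IsPSolvable.isPConstrained hsolv S ?_, fun h => hx1 (Subtype.ext h)⟩
      rw [show (S : Subgroup K).map K.subtype = ⊥ from hS1, Subgroup.mem_centralizer_iff]
      intro q hq
      rw [Subgroup.coe_bot, Set.mem_singleton_iff] at hq
      simp [hq]
    · obtain ⟨⟨s, hs⟩, hs1⟩ := Subgroup.ne_bot_iff_exists_ne_one.mp hS1
      refine ⟨MulAut.conj g s, ?_, ?_, fun h => hs1 (Subtype.ext
        ((MulAut.conj g).injective (h.trans (map_one _).symm)))⟩
      · rw [← hg]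
        exact ⟨s, hR hs, rfl⟩
      · exact (inferInstance : K.Normal).conj_mem s (Subgroup.map_subtype_le _ hs) g
  have hPK : (P : Subgroup G) ≤ K := fun y hy => by
    by_cases hy1 : y = 1
    · exact hy1 ▸ K.one_mem
    obtain ⟨c, rfl⟩ := isConj_iff.1 (hone x hxP hx1 y hy hy1)
    exact (inferInstance : K.Normal).conj_mem x hxK c
  -- Frattini
  have hKle : K ≤ O ⊔ (P : Subgroup G) := by
    have h := (Constrained.pPrimeCore_sup_sylow_eq (P.subtype hPK))
    rw [Sylow.coe_subtype, Subgroup.map_subgroupOf_eq_of_le hPK] at h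
    exact h.ge
  have htop : O ⊔ Subgroup.normalizer ((P : Subgroup G) : Set G) = ⊤ := by
    refine eq_top_iff.2 ?_
    have h := Sylow.normalizer_sup_eq_top (P.subtype hPK)
    rw [Sylow.coe_subtype, Subgroup.map_subgroupOf_eq_of_le hPK] at h
    rw [← h]
    exact sup_le le_sup_right
      (hKle.trans (sup_le le_sup_left (Subgroup.le_normalizer.trans le_sup_right)))
  -- a central element reaches every element
  haveI : Nontrivial (P : Subgroup G) := (Subgroup.nontrivial_iff_ne_bot _).2 hbot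
  haveI := IsPGroup.center_nontrivial P.isPGroup'
  obtain ⟨⟨z, hzc⟩, hz1⟩ := exists_ne (1 : Subgroup.center (P : Subgroup G))
  have hz1' : (z : G) ≠ 1 := fun h => hz1 (Subtype.ext (Subtype.ext h))
  by_cases ha1 : a = 1
  · subst ha1; simp
  obtain ⟨c, hc⟩ := isConj_iff.1 (hone z z.2 hz1' a ha ha1)
  obtain ⟨o, ho, n, hn, rfl⟩ := Subgroup.mem_sup_of_normal_left.1
    (show c ∈ O ⊔ Subgroup.normalizer ((P : Subgroup G) : Set G) from htop ▸ Subgroup.mem_top c)
  set z' := n * (z : G) * n⁻¹ with hz'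
  have hz'P : z' ∈ (P : Subgroup G) := (Subgroup.mem_normalizer_iff.1 hn z).1 z.2
  have haz : a = z' := by
    have hmem : a * z'⁻¹ ∈ (P : Subgroup G) ⊓ O := by
      refine ⟨Subgroup.mul_mem _ ha (Subgroup.inv_mem _ hz'P), ?_⟩
      rw [← hc, show o * n * (z : G) * (o * n)⁻¹ * z'⁻¹ = o * (z' * o⁻¹ * z'⁻¹) by rw [hz']; group]
      exact O.mul_mem ho ((inferInstance : O.Normal).conj_mem _ (O.inv_mem ho) z')
    rw [Constrained.disjoint_of_isPGroup_of_not_dvd P.isPGroup' Constrained.pPrimeCore_not_dvd,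
      Subgroup.mem_bot] at hmem
    exact mul_inv_eq_one.mp hmem
  have hb' : n⁻¹ * b * n ∈ (P : Subgroup G) := by
    have := (Subgroup.mem_normalizer_iff.1 (Subgroup.inv_mem _ hn) b).1 hb
    rwa [inv_inv] at this
  have h1 : n⁻¹ * b * n * (z : G) = z * (n⁻¹ * b * n) :=
    congrArg Subtype.val (Subgroup.mem_center_iff.1 hzc ⟨_, hb'⟩)
  rw [haz, hz']
  calc n * (z : G) * n⁻¹ * b = n * ((z : G) * (n⁻¹ * b * n)) * n⁻¹ := by group
    _ = n * (n⁻¹ * b * n * (z : G)) * n⁻¹ := by rw [h1]
    _ = b * (n * (z : G) * n⁻¹) := by group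

/-- For odd `p`, with normal `p`-complements in the centralizers. -/
theorem sylow_commute_of_nilpotent_centralizers (hodd : Odd p)
    (hone : ∀ x ∈ (P : Subgroup G), x ≠ 1 → ∀ y ∈ (P : Subgroup G), y ≠ 1 → IsConj x y)
    (hC : ∀ x ∈ (P : Subgroup G), x ≠ 1 →
      HasNormalPComplement p (Subgroup.centralizer ({x} : Set G))) :
    ∀ a ∈ (P : Subgroup G), ∀ b ∈ (P : Subgroup G), a * b = b * a := by
  classical
  have hp : p.Prime := Fact.out
  intro a ha b hb
  by_cases hbot : (P : Subgroup G) = ⊥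
  · rw [hbot, Subgroup.mem_bot] at ha; subst ha; simp
  haveI : Nontrivial (P : Subgroup G) := (Subgroup.nontrivial_iff_ne_bot _).2 hbot
  haveI := IsPGroup.center_nontrivial P.isPGroup'
  set N := Subgroup.normalizer ((P : Subgroup G) : Set G) with hN
  set φ := (P : Subgroup G).normalizerMonoidHom with hφ
  set E := φ.range with hE
  have hcentral : ∀ c : Subgroup.center (P : Subgroup G),
      ((c : (P : Subgroup G)) : G) ∈ Subgroup.centralizer ((P : Subgroup G) : Set G) := fun c =>
    Subgroup.mem_centralizer_iff.2 fun q hq =>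
      congrArg Subtype.val (Subgroup.mem_center_iff.1 c.2 ⟨q, hq⟩)
  -- `E` is transitive on the nontrivial central elements
  let Y := {c : Subgroup.center (P : Subgroup G) // c ≠ 1}
  letI : MulAction E Y :=
    { smul := fun e c => ⟨⟨(e : MulAut (P : Subgroup G)) (c.1 : (P : Subgroup G)),
          Subgroup.mem_center_iff.2 fun q => by
            obtain ⟨q, rfl⟩ := (e : MulAut (P : Subgroup G)).surjective q
            rw [← map_mul, ← map_mul, Subgroup.mem_center_iff.1 c.1.2 q]⟩,
        fun h => c.2 (Subtype.ext (by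
          have := congrArg Subtype.val h
          simpa using this))⟩
      one_smul := fun c => rfl
      mul_smul := fun e e' c => rfl }
  obtain ⟨c₀, hc₀⟩ := exists_ne (1 : Subgroup.center (P : Subgroup G))
  let y₀ : Y := ⟨c₀, hc₀⟩
  haveI : MulAction.IsPretransitive E Y := ⟨fun c d => by
    obtain ⟨g, hg⟩ := isConj_iff.1 (hone _ (c.1 : (P : Subgroup G)).2
      (fun h => c.2 (Subtype.ext (Subtype.ext h))) _ (d.1 : (P : Subgroup G)).2
      fun h => d.2 (Subtype.ext (Subtype.ext h)))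
    obtain ⟨n, hn, hgn⟩ := P.conj_eq_normalizer_conj_of_mem_centralizer
      ((c.1 : (P : Subgroup G)) : G) g⁻¹ (hcentral c.1)
      (by rw [inv_inv, hg]; exact hcentral d.1)
    rw [inv_inv, hg] at hgn
    refine ⟨⟨φ ⟨n⁻¹, N.inv_mem hn⟩, _, rfl⟩, Subtype.ext (Subtype.ext (Subtype.ext ?_))⟩
    show n⁻¹ * ((c.1 : (P : Subgroup G)) : G) * (n⁻¹)⁻¹ = _
    rw [inv_inv, hgn]⟩
  have htwo : 2 ∣ Nat.card Y := by
    obtain ⟨k, hk⟩ := IsPGroup.iff_card.1 (P.isPGroup'.to_subgroup (Subgroup.center (P : Subgroup G)))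
    haveI := Fintype.ofFinite (Subgroup.center (P : Subgroup G))
    have h1 : Nat.card Y = p ^ k - 1 := by
      rw [← hk, Nat.card_eq_fintype_card, Nat.card_eq_fintype_card, Fintype.card_subtype_compl,
        Fintype.card_subtype_eq]
    rw [h1]
    exact (Nat.Odd.sub_odd (hodd.pow) odd_one).two_dvd
  have hEven : 2 ∣ Nat.card E := by
    refine htwo.trans ?_
    rw [← MulAction.index_stabilizer_of_transitive E y₀]
    exact Subgroup.index_dvd_card _
  obtain ⟨⟨e, he⟩, he2⟩ := exists_prime_orderOf_dvd_card' (G := E) 2 hEven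
  rw [Subgroup.orderOf_mk] at he2
  have hesq : e * e = 1 := by rw [← sq, ← he2, pow_orderOf_eq_one]
  have he1 : e ≠ 1 := fun h => by rw [h, orderOf_one] at he2; omega
  have hinv : Function.Involutive e := fun x => by rw [← MulAut.mul_apply, hesq, MulAut.one_apply]
  -- no nontrivial fixed points
  have hkey : ∀ x : (P : Subgroup G), x ≠ 1 → e x = x →
      ∀ y : (P : Subgroup G), y * x = x * y → e y = y := by
    intro x hx1 hex y hyx
    obtain ⟨⟨n, hn⟩, hne⟩ := he
    have hval : ∀ v : (P : Subgroup G), (e v : G) = n * v * n⁻¹ := fun v => by rw [← hne]; rfl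
    set C := Subgroup.centralizer ({(x : G)} : Set G) with hCdef
    have hnC : n ∈ C := by
      rw [hCdef, Subgroup.mem_centralizer_singleton_iff]
      have h1 := hval x
      rw [hex] at h1
      calc n * (x : G) = n * x * n⁻¹ * n := by group
        _ = x * n := by rw [← h1]
    have hyC : (y : G) ∈ C := by
      rw [hCdef, Subgroup.mem_centralizer_singleton_iff]
      exact congrArg Subtype.val hyx
    obtain ⟨S, O, hOn, hcompl⟩ := hC x x.2 (fun h => hx1 (Subtype.ext h))
    -- a power of `n` in the complement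
    obtain ⟨j, hj⟩ : ∃ j, Nat.card (S : Subgroup C) = p ^ j := IsPGroup.iff_card.1 S.isPGroup'
    set q := p ^ j with hq
    have hOindex : O.index = q := by rw [hcompl.symm.index_eq_card, hj]
    have hnq : (⟨n, hnC⟩ : C) ^ q ∈ O := by
      rw [← hOindex]; exact O.pow_index_mem _
    have hOp : ¬ p ∣ Nat.card O := by
      rw [← hcompl.index_eq_card]; exact S.not_dvd_index
    set w : C := (⟨n, hnC⟩ : C) ^ q with hw
    set yC : C := ⟨y, hyC⟩ with hyCdef
    set m := w * yC * w⁻¹ * yC⁻¹ with hm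
    have hmO : m ∈ O := by
      rw [hm, show w * yC * w⁻¹ * yC⁻¹ = w * (yC * w⁻¹ * yC⁻¹) by group]
      exact O.mul_mem hnq (hOn.conj_mem _ (O.inv_mem hnq) _)
    have heq : e ^ q = e := by
      obtain ⟨i, hi⟩ := hodd.pow (n := j)
      rw [hq, hi, pow_succ, pow_mul, sq, hesq, one_pow, one_mul]
    have hwy : ((w * yC * w⁻¹ : C) : G) = e y := by
      have h2 : (φ (⟨n, hn⟩ ^ q)) y = e y := by rw [map_pow, hne, heq]
      rw [← h2]
      rfl
    have hmP : (m : G) ∈ (P : Subgroup G) := by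
      rw [hm, Subgroup.coe_mul, hwy]
      exact Subgroup.mul_mem _ (e y).2 (Subgroup.inv_mem _ y.2)
    have hm1 : m = 1 := by
      rw [← orderOf_eq_one_iff]
      obtain ⟨i, hi⟩ := IsPGroup.iff_orderOf.1 P.isPGroup' ⟨(m : G), hmP⟩
      rw [Subgroup.orderOf_mk, Subgroup.orderOf_coe] at hi
      have h3 : orderOf m ∣ Nat.card O := Subgroup.orderOf_coe (⟨m, hmO⟩ : O) ▸ orderOf_dvd_natCard _
      exact Nat.eq_one_of_dvd_coprimes ((hp.coprime_iff_not_dvd.2 hOp).pow_left i) (hi ▸ dvd_rfl) h3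
    have h4 := congrArg Subtype.val hm1
    rw [hm, Subgroup.coe_mul, hwy, Subgroup.coe_one, Subgroup.coe_inv, mul_inv_eq_one] at h4
    exact Subtype.ext h4
  have hfpf : MonoidHom.FixedPointFree e := fun x hx => by
    by_contra hx1
    have hc : (c₀ : (P : Subgroup G)) * x = x * c₀ := (Subgroup.mem_center_iff.1 c₀.2 x).symm
    have hec : e c₀ = c₀ := hkey x hx1 hx _ hc
    have hc1 : (c₀ : (P : Subgroup G)) ≠ 1 := fun h => hc₀ (Subtype.ext h)
    exact he1 (MulEquiv.ext fun y => hkey _ hc1 hec y (Subgroup.mem_center_iff.1 c₀.2 y))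
  exact congrArg Subtype.val (MonoidHom.FixedPointFree.commute_all_of_involutive hfpf hinv
    (⟨a, ha⟩ : (P : Subgroup G)) ⟨b, hb⟩).eq

end CfsgLib.Blocks.OneLess
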